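import Cfsg.Agent.Lib.DetGal.C

/-! # The determinant formula with the sign of the Galois action -/

set_option autoImplicit false

namespace CfsgLib.DetGal

open Cfsg CfsgLib.Char Matrix
open scoped Kronecker

theorem gal_det {G : Type*} {D : Type} [Fintype D] [DecidableEq D] (n : D → ℕ)
    {I : D → Type*} [∀ k, Fintype (I k)] [∀ k, DecidableEq (I k)]
    (R : ∀ k, I k → G → Matrix (Fin (n k)) (Fin (n k)) ℂ)
    (τ : ℂ ≃+* ℂ) (π : ∀ k, Equiv.Perm (I k))
    (hπ : ∏ k, (((Equiv.Perm.sign (π k) ^ (n k * n k) : ℤˣ) : ℤ) : ℂ) = 1)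
    (hA : ∀ k i, ∃ A B : Matrix (Fin (n k)) (Fin (n k)) ℂ, A * B = 1 ∧
      ∀ g, (R k i g).map τ = A * R k (π k i) g * B) (e : (Σ k, (Fin (n k) × Fin (n k)) × I k) → G)
    (M : Matrix (Σ k, (Fin (n k) × Fin (n k)) × I k) (Σ k, (Fin (n k) × Fin (n k)) × I k) ℂ)
    (hM : M = fun j c => R j.1 j.2.2 (e c) j.2.1.1 j.2.1.2) : τ M.det = M.det := by
  classical
  choose A B hAB hA using hA
  let T : ∀ k, Matrix ((Fin (n k) × Fin (n k)) × I k) ((Fin (n k) × Fin (n k)) × I k) ℂ := fun k =>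
    (blockDiagonal fun i => A k i ⊗ₖ (B k i)ᵀ).submatrix id (Equiv.prodCongrRight fun _ => (π k)⁻¹)
  have h1 : M.map τ = blockDiagonal' T * M := by
    ext ⟨k, ⟨a, b⟩, i⟩ c
    rw [bd_mul, Fintype.sum_prod_type, Fintype.sum_prod_type]
    have := congrFun (congrFun (hA k i (e c)) a) b
    rw [map_apply] at this
    subst hM
    change τ (R k i (e c) a b) = _
    rw [this, Matrix.mul_apply, Finset.sum_comm]
    refine Finset.sum_congr rfl fun y _ => ?_
    rw [Matrix.mul_apply, Finset.sum_mul]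
    refine Finset.sum_congr rfl fun x _ => ?_
    rw [Finset.sum_eq_single (π k i)]
    · simp only [T, submatrix_apply, id, Equiv.prodCongrRight_apply, Equiv.Perm.coe_inv,
        Equiv.symm_apply_apply, blockDiagonal_apply_eq, kroneckerMap_apply, transpose_apply]
      ring
    · intro j _ hj
      simp only [T, submatrix_apply, id, Equiv.prodCongrRight_apply]
      rw [blockDiagonal_apply_ne _ _ _ (fun h => hj (by rw [h]; simp)), zero_mul]
    · simp
  have h2 : ∀ k, (T k).det = (((Equiv.Perm.sign (π k) ^ (n k * n k) : ℤˣ) : ℤ) : ℂ) := fun k => by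
    simp only [T]
    rw [det_permute', det_blockDiagonal, Equiv.Perm.sign_prodCongrRight, Finset.prod_const,
      Finset.prod_eq_one fun i _ => by
        rw [det_kronecker, det_transpose, ← mul_pow, ← det_mul, hAB, det_one, one_pow]]
    simp
  have h3 := (τ : ℂ →+* ℂ).map_det M
  rw [RingHom.mapMatrix_apply] at h3
  change τ M.det = (M.map τ).det at h3
  rw [h3, h1, det_mul, MatConj.det_blockDiagonal', Finset.prod_congr rfl fun k _ => h2 k, hπ, one_mul]

theorem main' {G : Type*} [Group G] [Fintype G] [DecidableEq G] {D : Type} [Fintype D] [DecidableEq D] (n : D → ℕ)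
    {I : D → Type*} [∀ k, Fintype (I k)] [∀ k, DecidableEq (I k)]
    (R : ∀ k, I k → G → Matrix (Fin (n k)) (Fin (n k)) ℂ)
    (hm : ∀ k i g h, R k i (g * h) = R k i g * R k i h)
    (hr : ∀ g, ∑ k, ∑ i : I k, (n k : ℂ) * (R k i g).trace = if g = 1 then (Fintype.card G : ℂ) else 0)
    (hc : ∑ k, ∑ _i : I k, n k * n k = Fintype.card G)
    (τ : ℂ ≃+* ℂ) (π : ∀ k, Equiv.Perm (I k))
    (hπ : ∏ k, (((Equiv.Perm.sign (π k) ^ (n k * n k) : ℤˣ) : ℤ) : ℂ) = 1)
    (hA : ∀ k i, ∃ A B : Matrix (Fin (n k)) (Fin (n k)) ℂ, A * B = 1 ∧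
      ∀ g, (R k i g).map τ = A * R k (π k i) g * B) :
    ∃ δ : ℂ, τ δ = δ ∧ δ ^ 2 * ∏ k, ∏ _i : I k, ((n k : ℂ) ^ (n k * n k) * (-1) ^ ((n k * n k - n k) / 2)) =
      (Fintype.card G : ℂ) ^ Fintype.card G * (-1) ^ ((Fintype.card G - Nat.card {x : G // x * x = 1}) / 2) := by
  classical
  let J := Σ k, (Fin (n k) × Fin (n k)) × I k
  have hJ : Fintype.card J = Fintype.card G := by
    rw [← hc, Fintype.card_sigma]
    refine Finset.sum_congr rfl fun k _ => ?_
    simp [mul_comm]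
  let e : J ≃ G := Fintype.equivOfCardEq hJ
  let M : Matrix J J ℂ := fun j c => R j.1 j.2.2 (e c) j.2.1.1 j.2.1.2
  refine ⟨M.det, gal_det n R τ π hπ hA e M rfl, ?_⟩
  · let W : ∀ k, Matrix ((Fin (n k) × Fin (n k)) × I k) ((Fin (n k) × Fin (n k)) × I k) ℂ := fun k =>
      blockDiagonal fun _ => (n k : ℂ) • (1 : Matrix _ _ ℂ).submatrix (Equiv.prodComm (Fin (n k)) (Fin (n k))) id
    let σ : Equiv.Perm J := (e.trans (Equiv.inv G)).trans e.symm
    have h1 : Mᵀ * (blockDiagonal' W * M) = (Fintype.card G : ℂ) • (1 : Matrix J J ℂ).submatrix id σ := by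
      ext c c'
      have h0 : ∀ k a b i, (blockDiagonal' W * M) ⟨k, (a, b), i⟩ c' = n k * R k i (e c') b a := by
        intro k a b i
        rw [bd_mul, Finset.sum_eq_single ((b, a), i)]
        · simp [W, M, one_apply]
        · rintro ⟨x, j⟩ _ hj
          by_cases hij : i = j
          · subst hij
            have : (b, a) ≠ x := fun h => hj (by rw [h])
            simp [W, one_apply, this]
          · simp only [W]
            rw [blockDiagonal_apply_ne _ _ _ hij, zero_mul]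
        · simp
      rw [Matrix.mul_apply, Fintype.sum_sigma]
      have h4 := hr (e c * e c')
      have h5 : (if e c * e c' = 1 then (Fintype.card G : ℂ) else 0) =
          ((Fintype.card G : ℂ) • (1 : Matrix J J ℂ).submatrix id σ) c c' := by
        simp only [Matrix.smul_apply, submatrix_apply, id, one_apply, σ, Equiv.trans_apply, Equiv.inv_apply,
          Equiv.eq_symm_apply, mul_eq_one_iff_eq_inv, smul_eq_mul, mul_ite, mul_one, mul_zero]
      rw [← h5, ← h4]
      refine Finset.sum_congr rfl fun k _ => ?_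
      rw [Fintype.sum_prod_type, Finset.sum_comm]
      refine Finset.sum_congr rfl fun i _ => ?_
      rw [hm, Matrix.trace, Finset.mul_sum, Fintype.sum_prod_type]
      refine Finset.sum_congr rfl fun a _ => ?_
      rw [diag_apply, Matrix.mul_apply, Finset.mul_sum]
      refine Finset.sum_congr rfl fun b _ => ?_
      rw [h0, transpose_apply]
      simp only [M]
      ring
    have h2 := congrArg det h1
    rw [det_mul, det_mul, det_transpose, MatConj.det_blockDiagonal', det_smul, det_permute', det_one, hJ,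
      Equiv.Perm.sign_of_pow_two_eq_one (σ := σ) (by ext x : 1; simp [σ, sq]), hJ] at h2
    have h3 : Fintype.card (Function.fixedPoints σ) = Nat.card {x : G // x * x = 1} := by
      rw [← Nat.card_eq_fintype_card]
      refine Nat.card_congr (e.subtypeEquiv fun j => ?_)
      change e.symm (e j)⁻¹ = j ↔ _
      rw [Equiv.symm_apply_eq, mul_eq_one_iff_inv_eq]
    rw [h3] at h2
    have h4 : ∀ k, (W k).det = ∏ _i : I k, ((n k : ℂ) ^ (n k * n k) * (-1) ^ ((n k * n k - n k) / 2)) := fun k => by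
      simp only [W]
      rw [det_blockDiagonal]
      refine Finset.prod_congr rfl fun i _ => ?_
      rw [det_smul, det_permute, det_one, sign_swap]
      simp
    simp only [h4] at h2
    simp only [Units.val_pow_eq_pow_val, Units.val_neg, Units.val_one, Int.cast_pow, Int.cast_neg, Int.cast_one,
      mul_one] at h2
    rw [← h2]; ring

theorem parity' {G : Type*} [Group G] [Finite G] (hev : Even (Nat.card G)) (τ : ℂ ≃+* ℂ) {m : ℕ} (hm : Odd m)
    (hτ : ∀ ε : ℂ, ε ^ m = 1 → τ ε = ε) (hd : ∀ n, Odd n → n ∣ Nat.card G → n ∣ m)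
    (hI : τ Complex.I = -Complex.I)
    (hτ2 : ∀ χ : IrrCharacter G, KGV.galIrr τ (KGV.galIrr τ χ) = χ)
    (hmov : 4 ∣ Nat.card {χ : IrrCharacter G // ¬ 2 ∣ charDegree (χ : G → ℂ) ∧ KGV.galIrr τ χ ≠ χ}) :
    Even (∑ χ : IrrCharacter G, ev (charDegree (χ : G → ℂ)) + (Nat.card G - Nat.card {x : G // x * x = 1}) / 2) := by
  classical
  have := Fintype.ofFinite G
  let f : IrrCharacter G → Fin (Nat.card G + 1) := fun χ =>
    ⟨charDegree (χ : G → ℂ), Nat.lt_succ_of_le (Nat.le_of_dvd Nat.card_pos (ChDeg.deg_dvd_card χ.2))⟩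
  let I : Fin (Nat.card G + 1) → Type _ := fun k => {χ // f χ = k}
  have hI1 : ∀ k (i : I k), charDegree (i.1 : G → ℂ) = k.1 := fun k i => congrArg Fin.val i.2
  have hρ : ∀ k (i : I k), ∃ ρ : Representation ℂ G (Fin k.1 → ℂ), ρ.character = (i.1 : G → ℂ) := by
    intro k i
    obtain ⟨n, ρ, -, h⟩ := i.1.2
    obtain rfl : n = k.1 := by
      rw [← hI1 k i, ← h]
      exact (ChDeg.deg_eq_of_eq (by rw [Representation.char_one]; simp)).symm
    exact ⟨ρ, h⟩
  choose ρ hρ using hρ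
  have hdeg : ∀ χ : IrrCharacter G, f (KGV.galIrr τ χ) = f χ := fun χ =>
    Fin.ext (ChDeg.deg_congr (by rw [KGV.galIrr_apply, ← ChDeg.irr_deg_cast, map_natCast]))
  let π : ∀ k, Equiv.Perm (I k) := fun k => (KGV.galIrr τ).subtypeEquiv fun χ => by rw [hdeg]
  have sf : ∀ {M : Type} [AddCommMonoid M] (F : ℕ → IrrCharacter G → M),
      ∑ k, ∑ i : I k, F k.1 i.1 = ∑ χ : IrrCharacter G, F (charDegree (χ : G → ℂ)) χ := by
    intro M _ F
    rw [← Fintype.sum_fiberwise f]
    exact Finset.sum_congr rfl fun k _ => Finset.sum_congr rfl fun i _ => by rw [hI1]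
  have hsgn : ∏ k : Fin (Nat.card G + 1), (((Equiv.Perm.sign (π k) ^ (k.1 * k.1) : ℤˣ) : ℤ) : ℂ) = 1 := by
    let c : Fin (Nat.card G + 1) → ℕ := fun k =>
      ∑ i : I k, if ¬ 2 ∣ k.1 ∧ KGV.galIrr τ i.1 ≠ i.1 then 1 else 0
    have c1 : ∀ k, 2 ∣ c k ∧ (((Equiv.Perm.sign (π k) ^ (k.1 * k.1) : ℤˣ) : ℤ) : ℂ) = (-1) ^ (c k / 2) := fun k => by
      by_cases hk : 2 ∣ k.1
      · have : c k = 0 := Finset.sum_eq_zero fun i _ => if_neg fun h => h.1 hk
        rw [this, Int.units_pow_eq_pow_mod_two, Nat.even_iff.1 ((even_iff_two_dvd.2 hk).mul_right _)]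
        simp
      · have p2 : π k ^ 2 = 1 := Equiv.ext fun i => Subtype.ext (hτ2 i.1)
        have e1 : Fintype.card (I k) - Fintype.card (Function.fixedPoints (π k)) = c k := by
          simp only [c, hk, not_false_eq_true, true_and]
          rw [← Finset.card_filter, ← Fintype.card_subtype, ← Fintype.card_subtype_compl]
          exact Fintype.card_congr (Equiv.subtypeEquivRight fun i => not_congr Subtype.ext_iff)
        have e2 := Equiv.Perm.card_fixedPoints_modEq (f := (fun i => π k i : Function.End (I k))) (p := 2) (n := 1)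
          (funext fun i => Subtype.ext (hτ2 i.1))
        have ho : Odd k.1 := by rwa [← even_iff_two_dvd, Nat.not_even_iff_odd] at hk
        refine ⟨e1 ▸ (Nat.modEq_iff_dvd' (Fintype.card_subtype_le _)).1 e2.symm, ?_⟩
        rw [Int.units_pow_eq_pow_mod_two, Nat.odd_iff.1 (ho.mul ho), pow_one,
          Equiv.Perm.sign_of_pow_two_eq_one p2, e1]
        simp
    have c2 : ∑ k, c k = Nat.card {χ : IrrCharacter G // ¬ 2 ∣ charDegree (χ : G → ℂ) ∧ KGV.galIrr τ χ ≠ χ} := by
      rw [Nat.card_eq_fintype_card (α := Subtype _), Fintype.card_subtype, Finset.card_filter]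
      exact sf fun n χ => if ¬ 2 ∣ n ∧ KGV.galIrr τ χ ≠ χ then 1 else 0
    have c3 : ∑ k, c k = 2 * ∑ k, c k / 2 := by
      rw [Finset.mul_sum]
      exact Finset.sum_congr rfl fun k _ => (Nat.mul_div_cancel' (c1 k).1).symm
    rw [Finset.prod_congr rfl fun k _ => (c1 k).2, Finset.prod_pow_eq_pow_sum]
    exact Even.neg_one_pow (Nat.even_iff.2 (by omega))
  obtain ⟨δ, h1, h2⟩ := main' (G := G) (fun k : Fin (Nat.card G + 1) => k.1) (I := I)
    (fun k i g => LinearMap.toMatrix' (ρ k i g)) (fun k i g h => by rw [map_mul, LinearMap.toMatrix'_mul])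
    (fun g => by
      have e : ∀ k (i : I k), (LinearMap.toMatrix' (ρ k i g)).trace = (i.1 : G → ℂ) g := fun k i => by
        rw [← hρ, Representation.character, ← Matrix.trace_toLin'_eq, Matrix.toLin'_toMatrix']
      simp only [e]
      rw [sf fun n χ => (n : ℂ) * (χ : G → ℂ) g]
      simp only [ChDeg.irr_deg_cast]
      split_ifs with h
      · rw [h, ← Nat.card_eq_fintype_card, ← sum_irr_one_sq]
        simp only [sq]
      · exact sum_irr_one_mul_of_ne_one h)
    (by rw [sf fun n _ => n * n, ← Nat.card_eq_fintype_card, ← ChDeg.sum_deg_sq]; simp only [sq])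
    τ π hsgn
    (fun k i => by
      obtain ⟨φ⟩ := nonempty_equiv_of_character_eq (ρ k (π k i)) (CharGal.galRep (τ : ℂ →+* ℂ) (ρ k i))
        (funext fun g => by rw [CharGal.galRep_character, hρ, hρ]; rfl)
      refine ⟨LinearMap.toMatrix' φ.toLinearEquiv.toLinearMap, LinearMap.toMatrix' φ.toLinearEquiv.symm.toLinearMap,
        by rw [← LinearMap.toMatrix'_comp, LinearEquiv.comp_symm, LinearMap.toMatrix'_id], fun g => ?_⟩
      have e := φ.conj_apply_self g
      rw [LinearEquiv.conj_apply] at e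
      rw [← LinearMap.toMatrix'_comp, ← LinearMap.toMatrix'_comp, e]
      exact (LinearMap.toMatrix'_toLin' _).symm)
  have hz : ∀ χ : IrrCharacter G, _ := fun χ =>
    exists_z τ hm hτ (n := charDegree (χ : G → ℂ)) fun h => hd _ h (ChDeg.deg_dvd_card χ.2)
  choose z hz1 hz2 using hz
  have e : ∏ k : Fin (Nat.card G + 1), ∏ _i : I k, ((k.1 : ℂ) ^ (k.1 * k.1) * (-1) ^ ((k.1 * k.1 - k.1) / 2)) =
      (∏ χ, z χ) ^ 2 * (-1) ^ ∑ χ : IrrCharacter G, ev (charDegree (χ : G → ℂ)) := by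
    rw [← Finset.prod_pow, ← Finset.prod_pow_eq_pow_sum, ← Finset.prod_mul_distrib, ← Fintype.prod_fiberwise f]
    exact Finset.prod_congr rfl fun k _ => Finset.prod_congr rfl fun i _ => by rw [← hz2, hI1]
  rw [e, ← Nat.card_eq_fintype_card] at h2
  obtain ⟨u, hu⟩ := hev
  by_contra hodd
  rw [Nat.not_even_iff_odd] at hodd
  have hN : (Nat.card G : ℂ) ^ u ≠ 0 := pow_ne_zero _ (Nat.cast_ne_zero.2 Nat.card_pos.ne')
  have hy : τ (δ * (∏ χ, z χ) / (Nat.card G : ℂ) ^ u) = δ * (∏ χ, z χ) / (Nat.card G : ℂ) ^ u := by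
    simp only [map_div₀, map_mul, map_prod, map_pow, map_natCast, h1, hz1]
  have hy2 : (δ * (∏ χ, z χ) / (Nat.card G : ℂ) ^ u) ^ 2 = Complex.I ^ 2 := by
    rw [Complex.I_sq, ← hodd.neg_one_pow, div_pow, div_eq_iff (pow_ne_zero _ hN), pow_add]
    have h3 : ((-1 : ℂ) ^ ∑ χ : IrrCharacter G, ev (charDegree (χ : G → ℂ))) ^ 2 = 1 := by
      rw [← pow_mul, mul_comm, pow_mul]; simp
    have h4 : (Nat.card G : ℂ) ^ Nat.card G = ((Nat.card G : ℂ) ^ u) ^ 2 := by
      rw [← pow_mul, mul_two, ← hu]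
    rw [h4] at h2
    linear_combination ((-1 : ℂ) ^ ∑ χ : IrrCharacter G, ev (charDegree (χ : G → ℂ))) * h2 -
      (δ * ∏ χ, z χ) ^ 2 * h3
  rcases sq_eq_sq_iff_eq_or_eq_neg.1 hy2 with h | h
  · rw [h, hI] at hy
    exact Complex.I_ne_zero (by linear_combination (-1 / 2 : ℂ) * hy)
  · rw [h, map_neg, hI] at hy
    exact Complex.I_ne_zero (by linear_combination (1 / 2 : ℂ) * hy)

/-- `k₀(G) ≡ 4 (mod 8)` and `τ` even on the odd-degree characters force `1 (mod 4)` involutions -/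
theorem invol_mod_four {G : Type*} [Group G] [Finite G] (h8 : 8 ∣ Nat.card G) (τ : ℂ ≃+* ℂ) {m a : ℕ} (hm : Odd m)
    (hG : Nat.card G = 2 ^ a * m) (hτ : ∀ ε : ℂ, ε ^ m = 1 → τ ε = ε) (hI : τ Complex.I = -Complex.I)
    (hτ2 : ∀ χ : IrrCharacter G, KGV.galIrr τ (KGV.galIrr τ χ) = χ)
    (hcnt : Nat.card {χ : IrrCharacter G // ¬ 2 ∣ charDegree (χ : G → ℂ)} % 8 = 4)
    (hmov : 4 ∣ Nat.card {χ : IrrCharacter G // ¬ 2 ∣ charDegree (χ : G → ℂ) ∧ KGV.galIrr τ χ ≠ χ}) :
    Nat.card {t : G // orderOf t = 2} % 4 = 1 := by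
  classical
  have hE : Nat.card G % 8 = (Nat.card {χ : IrrCharacter G // ¬ 2 ∣ charDegree (χ : G → ℂ)} +
      4 * ∑ χ : IrrCharacter G, ev (charDegree (χ : G → ℂ))) % 8 := by
    rw [← ZMod.natCast_eq_natCast_iff', ← ChDeg.sum_deg_sq, Nat.cast_sum]
    simp only [sq_mod]
    rw [Finset.sum_add_distrib, ← Nat.cast_sum, ← Finset.card_filter, ← Finset.mul_sum, Nat.card_eq_fintype_card,
      Fintype.card_subtype]
    push_cast; rfl
  have h1 := parity' (even_iff_two_dvd.2 (by omega)) τ hm hτ (fun n hn h =>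
    (Nat.Coprime.pow_right a (Nat.coprime_two_right.2 hn)).dvd_of_dvd_mul_left (hG ▸ h)) hI hτ2 hmov
  have h2 : Nat.card {x : G // x * x = 1} = Nat.card {t : G // orderOf t = 2} + 1 := by
    rw [← TwoGrp.Herzog.ncard_sol]; exact Nat.card_coe_set_eq _
  have h3 : Nat.card {x : G // x * x = 1} ≤ Nat.card G := Finite.card_subtype_le _
  have h5 : Nat.card G ≡ Nat.card {x : G // x * x = 1} [MOD 2] := by
    have := Fintype.ofFinite G
    have e := Equiv.Perm.card_fixedPoints_modEq (f := (fun x : G => x⁻¹ : Function.End G)) (p := 2) (n := 1)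
      (funext fun x => inv_inv x)
    rw [← Nat.card_eq_fintype_card, ← Nat.card_eq_fintype_card] at e
    rwa [Nat.card_congr (Equiv.subtypeEquivRight (q := fun x : G => x⁻¹ = x) fun x => mul_eq_one_iff_inv_eq)]
  unfold Nat.ModEq at h5
  rw [Nat.even_iff] at h1
  omega

end CfsgLib.DetGal
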